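import Mathlib
import Cfsg.Prelude.Def_HallClasses
import Cfsg.Agent.Lib.Coprime.SchurZassenhaus
import Cfsg.Agent.Lib.HallExt.Main

/-!
# Hall subgroups of `π`-separable groups (given the odd order theorem)

`main hFT π hsep`: a finite group with a normal chain whose factors are `π`-groups or `π'`-groups
has Hall `π`-subgroups, any two conjugate, and each `π`-subgroup lies in one of them.
-/

set_option autoImplicit false
set_option linter.all false

namespace Cfsg.Agent.Lib.PiSep.Main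

open Cfsg

universe u

/-- The Hall properties. -/
def Good (π : Set ℕ) (G : Type u) [Group G] : Prop :=
  IsCPiGroup π G ∧ ∀ U : Subgroup G, (∀ q : ℕ, q.Prime → q ∣ Nat.card U → q ∈ π) →
    ∃ K : Subgroup G, IsPiHall π K ∧ U ≤ K

section basic

variable {X : Type u} [Group X] [Finite X] {π : Set ℕ}

theorem cpi_of_pi (h : ∀ q : ℕ, q.Prime → q ∣ Nat.card X → q ∈ π) : IsCPiGroup π X := by
  have hall : ∀ K : Subgroup X, IsPiHall π K → K = ⊤ := by
    intro K hK
    by_contra hne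
    have h1 : K.index ≠ 1 := fun h1 => hne (Subgroup.index_eq_one.mp h1)
    obtain ⟨q, hq, hqd⟩ := Nat.exists_prime_and_dvd h1
    exact hK.2 q hq (h q hq (hqd.trans K.index_dvd_card)) hqd
  refine ⟨⟨⊤, ?_, ?_⟩, ?_⟩
  · intro p hp hd
    rw [Subgroup.card_top] at hd
    exact h p hp hd
  · intro p hp _
    rw [Subgroup.index_top]
    exact hp.one_lt.ne' ∘ Nat.dvd_one.mp
  · intro H K hH hK
    refine ⟨1, ?_⟩
    rw [hall H hH, hall K hK]
    simp [Subgroup.map_top_of_surjective]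

theorem cpi_of_pi' (h : ∀ q : ℕ, q.Prime → q ∣ Nat.card X → q ∉ π) : IsCPiGroup π X := by
  have hall : ∀ K : Subgroup X, IsPiHall π K → K = ⊥ := by
    intro K hK
    by_contra hne
    have h1 : Nat.card K ≠ 1 := fun h1 => hne (Subgroup.eq_bot_of_card_eq K h1)
    obtain ⟨q, hq, hqd⟩ := Nat.exists_prime_and_dvd h1
    exact h q hq (hqd.trans (Subgroup.card_subgroup_dvd_card K)) (hK.1 q hq hqd)
  refine ⟨⟨⊥, ?_, ?_⟩, ?_⟩
  · intro p hp hd
    rw [Subgroup.card_bot] at hd
    exact absurd (Nat.dvd_one.mp hd) hp.one_lt.ne'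
  · intro p hp hpi hd
    rw [Subgroup.index_bot] at hd
    exact h p hp hd hpi
  · intro H K hH hK
    refine ⟨1, ?_⟩
    rw [hall H hH, hall K hK]
    simp

end basic

section step

variable {G : Type u} [Group G] [Finite G] {π : Set ℕ}

theorem card_comap_eq {Q : Type u} [Group Q] (f : G →* Q) (hf : Function.Surjective f)
    (K : Subgroup Q) : Nat.card (K.comap f) = Nat.card K * Nat.card f.ker := by
  have hle : f.ker ≤ K.comap f := fun x hx => by
    rw [Subgroup.mem_comap, (MonoidHom.mem_ker).mp hx]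
    exact K.one_mem
  have h1 := Subgroup.relIndex_ker (K := K.comap f) f
  have h2 : Nat.card (K.comap f) = f.ker.relIndex (K.comap f) * Nat.card f.ker := by
    have h3 := Subgroup.card_mul_index (f.ker.subgroupOf (K.comap f))
    rw [Nat.card_congr (Subgroup.subgroupOfEquivOfLe hle).toEquiv] at h3
    rw [Subgroup.relIndex, ← h3, mul_comm]
  rw [h1, Subgroup.map_comap_eq_self_of_surjective hf] at h2
  exact h2

theorem hall_map {Q : Type u} [Group Q] [Finite Q] (f : G →* Q) (hf : Function.Surjective f)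
    {K : Subgroup G} (hK : IsPiHall π K) : IsPiHall π (K.map f) := by
  refine ⟨fun p hp hd => hK.1 p hp (hd.trans (Subgroup.card_map_dvd K f)), fun p hp hpi hd => ?_⟩
  exact hK.2 p hp hpi (hd.trans (Subgroup.index_map_dvd K hf))

theorem hall_conj {K : Subgroup G} (hK : IsPiHall π K) (g : G) :
    IsPiHall π (K.map (MulAut.conj g).toMonoidHom) :=
  Cfsg.Agent.Lib.HallExt.Main.isPiHall_map_aut π K (MulAut.conj g) hK

theorem step_pi (N : Subgroup G) [N.Normal] (hN : ∀ q : ℕ, q.Prime → q ∣ Nat.card N → q ∈ π)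
    (hQ : Good π (G ⧸ N)) (U : Subgroup G) (hU : ∀ q : ℕ, q.Prime → q ∣ Nat.card U → q ∈ π) :
    ∃ K : Subgroup G, IsPiHall π K ∧ U ≤ K := by
  set f : G →* G ⧸ N := QuotientGroup.mk' N with hf
  have hs : Function.Surjective f := QuotientGroup.mk'_surjective N
  have hk : f.ker = N := QuotientGroup.ker_mk' N
  obtain ⟨K, hK, hUK⟩ := hQ.2 (U.map f) (fun q hq hd => hU q hq (hd.trans (Subgroup.card_map_dvd U f)))
  refine ⟨K.comap f, ⟨?_, ?_⟩, ?_⟩
  · intro p hp hd
    rw [card_comap_eq f hs, hk] at hd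
    rcases (Nat.Prime.dvd_mul hp).mp hd with h | h
    · exact hK.1 p hp h
    · exact hN p hp h
  · intro p hp hpi hd
    rw [Subgroup.index_comap_of_surjective K hs] at hd
    exact hK.2 p hp hpi hd
  · exact (Subgroup.map_le_iff_le_comap).mp hUK

theorem step_pi' (hFT : ∀ (X : Type u) [Group X] [Finite X], Odd (Nat.card X) → Group.IsSolvable X)
    (N : Subgroup G) [N.Normal] (hN : ∀ q : ℕ, q.Prime → q ∣ Nat.card N → q ∉ π)
    (hC : IsCPiGroup π G) (hQ : Good π (G ⧸ N)) (U : Subgroup G)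
    (hU : ∀ q : ℕ, q.Prime → q ∣ Nat.card U → q ∈ π) :
    ∃ K : Subgroup G, IsPiHall π K ∧ U ≤ K := by
  classical
  set f : G →* G ⧸ N := QuotientGroup.mk' N with hf
  have hs : Function.Surjective f := QuotientGroup.mk'_surjective N
  have hk : f.ker = N := QuotientGroup.ker_mk' N
  obtain ⟨Kb, hKb, hUK⟩ := hQ.2 (U.map f) (fun q hq hd => hU q hq (hd.trans (Subgroup.card_map_dvd U f)))
  obtain ⟨K₀, hK₀⟩ := hC.1
  obtain ⟨gb, hgb⟩ := hQ.1.2 (K₀.map f) Kb (hall_map f hs hK₀) hKb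
  obtain ⟨g, rfl⟩ := hs gb
  set K₁ : Subgroup G := K₀.map (MulAut.conj g).toMonoidHom with hK₁def
  have hK₁ : IsPiHall π K₁ := hall_conj hK₀ g
  have hK₁map : K₁.map f = Kb := by
    rw [hgb, hK₁def, Subgroup.map_map, Subgroup.map_map]
    congr 1
  have hcopN : ∀ {A : Subgroup G}, (∀ q : ℕ, q.Prime → q ∣ Nat.card A → q ∈ π) →
      (Nat.card N).Coprime (Nat.card A) := by
    intro A hA
    apply Nat.Coprime.symm
    apply Nat.coprime_of_dvd
    intro q hq h1 h2
    exact hN q hq h2 (hA q hq h1)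
  have hdisjU : U ⊓ N = ⊥ := by
    exact Cfsg.Agent.Lib.Coprime.SchurZassenhaus.disjoint_of_coprime_card (hcopN hU).symm
  have hdisjK : K₁ ⊓ N = ⊥ := by
    exact Cfsg.Agent.Lib.Coprime.SchurZassenhaus.disjoint_of_coprime_card (hcopN hK₁.1).symm
  -- `U ≤ K₁ ⊔ N`
  have hUle : U ≤ K₁ ⊔ N := by
    intro u hu
    have h1 : f u ∈ K₁.map f := by
      rw [hK₁map]
      exact hUK ⟨u, hu, rfl⟩
    obtain ⟨k, hk1, hk2⟩ := h1
    have h2 : k⁻¹ * u ∈ N := by
      rw [← hk, MonoidHom.mem_ker, map_mul, map_inv, ← hk2]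
      simp
    have : u = k * (k⁻¹ * u) := by group
    rw [this]
    exact Subgroup.mul_mem_sup hk1 h2
  set Z : Subgroup G := U ⊔ N with hZ
  have hNZ : N ≤ Z := le_sup_right
  have hUZ : U ≤ Z := le_sup_left
  set K₂ : Subgroup G := K₁ ⊓ Z with hK₂def
  have hK₂Z : K₂ ≤ Z := inf_le_right
  have hK₂1 : K₂ ≤ K₁ := inf_le_left
  -- Dedekind
  have hded : Z = K₂ ⊔ N := by
    apply le_antisymm
    · intro z hz
      have hz' : z ∈ K₁ ⊔ N := (sup_le hUle le_sup_right : Z ≤ K₁ ⊔ N) hz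
      obtain ⟨n, hn, k, hk', rfl⟩ := Subgroup.mem_sup_of_normal_left.mp (by rwa [sup_comm] at hz')
      have hkZ : k ∈ Z := by
        have : k = n⁻¹ * (n * k) := by group
        rw [this]
        exact Z.mul_mem (Z.inv_mem (hNZ hn)) hz
      rw [sup_comm]
      exact Subgroup.mul_mem_sup hn ⟨hk', hkZ⟩
    · exact sup_le hK₂Z hNZ
  have cardsup : ∀ A : Subgroup G, A ⊓ N = ⊥ → Nat.card (A ⊔ N : Subgroup G) = Nat.card A * Nat.card N := by
    intro A hA
    have := Cfsg.Agent.Lib.Coprime.SchurZassenhaus.card_sup_of_disjoint N A hA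
    rw [this, mul_comm]
  have hcardZ₁ : Nat.card Z = Nat.card U * Nat.card N := cardsup U hdisjU
  have hdisjK₂ : K₂ ⊓ N = ⊥ := by
    rw [eq_bot_iff, ← hdisjK]
    exact inf_le_inf_right N hK₂1
  have hcardZ₂ : Nat.card Z = Nat.card K₂ * Nat.card N := by
    rw [hded]
    exact cardsup K₂ hdisjK₂
  have hcardeq : Nat.card K₂ = Nat.card U := by
    have hpos : 0 < Nat.card N := Nat.card_pos
    exact Nat.eq_of_mul_eq_mul_right hpos (hcardZ₂.symm.trans hcardZ₁)
  -- work in `Z`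
  let N' : Subgroup Z := N.subgroupOf Z
  haveI : N'.Normal := inferInstance
  let U' : Subgroup Z := U.subgroupOf Z
  let K' : Subgroup Z := K₂.subgroupOf Z
  have cN : Nat.card N' = Nat.card N := Cfsg.Agent.Lib.Coprime.SchurZassenhaus.card_subgroupOf_of_le hNZ
  have cU : Nat.card U' = Nat.card U := Cfsg.Agent.Lib.Coprime.SchurZassenhaus.card_subgroupOf_of_le hUZ
  have cK : Nat.card K' = Nat.card K₂ := Cfsg.Agent.Lib.Coprime.SchurZassenhaus.card_subgroupOf_of_le hK₂Z
  have hsolv : Group.IsSolvable N' ∨ Group.IsSolvable U' := by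
    by_cases h2 : Odd (Nat.card N')
    · exact Or.inl (hFT _ h2)
    · right
      apply hFT
      rw [← Nat.not_even_iff_odd]
      intro h3
      rw [Nat.not_odd_iff_even] at h2
      rw [cN] at h2
      rw [cU] at h3
      exact hN 2 Nat.prime_two h2.two_dvd (hU 2 Nat.prime_two h3.two_dvd)
  obtain ⟨z, hz⟩ := Cfsg.Agent.Lib.Coprime.SchurZassenhaus.conj_of_card N' U' K' hsolv
    (by rw [cN, cU, mul_comm]; exact hcardZ₁.symm) (by rw [cK, cU]; exact hcardeq)
    (by rw [cN, cU]; exact hcopN hU)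
  refine ⟨K₁.map (MulAut.conj ((z : G)⁻¹)).toMonoidHom, hall_conj hK₁ _, ?_⟩
  intro u hu
  have h1 : (z * ⟨u, hUZ hu⟩ * z⁻¹ : Z) ∈ K' := by
    rw [← hz]
    exact Cfsg.Agent.Lib.Coprime.SchurZassenhaus.conj_mem_conj_smul z _ U'
      (Subgroup.mem_subgroupOf.mpr hu)
  have h2 : (z : G) * u * (z : G)⁻¹ ∈ K₁ := hK₂1 (Subgroup.mem_subgroupOf.mp h1)
  refine ⟨_, h2, ?_⟩
  simp [MulAut.conj_apply]
  group

theorem step (hFT : ∀ (X : Type u) [Group X] [Finite X], Odd (Nat.card X) → Group.IsSolvable X)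
    (N : Subgroup G) [N.Normal]
    (hN : (∀ q : ℕ, q.Prime → q ∣ Nat.card N → q ∈ π) ∨ (∀ q : ℕ, q.Prime → q ∣ Nat.card N → q ∉ π))
    (hQ : Good π (G ⧸ N)) : Good π G := by
  have hcN : IsCPiGroup π N := by
    rcases hN with h | h
    · exact cpi_of_pi h
    · exact cpi_of_pi' h
  have hC : IsCPiGroup π G := Cfsg.Agent.Lib.HallExt.Main.main π hFT N hcN hQ.1
  refine ⟨hC, fun U hU => ?_⟩
  rcases hN with h | h
  · exact step_pi N h hQ U hU
  · exact step_pi' hFT N h hC hQ U hU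

end step

theorem good_of_chain (hFT : ∀ (X : Type u) [Group X] [Finite X], Odd (Nat.card X) → Group.IsSolvable X)
    (π : Set ℕ) (n : ℕ) : ∀ (G : Type u) [Group G] [Finite G],
    (∃ (H : Fin (n + 1) → Subgroup G), H 0 = ⊥ ∧ H (Fin.last n) = ⊤ ∧ Monotone H ∧ (∀ i, (H i).Normal) ∧
      ∀ i : Fin n, (∀ q : ℕ, q.Prime → q ∣ (H i.castSucc).relIndex (H i.succ) → q ∈ π) ∨
        (∀ q : ℕ, q.Prime → q ∣ (H i.castSucc).relIndex (H i.succ) → q ∉ π)) → Good π G := by
  induction n with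
  | zero =>
    rintro G _ _ ⟨H, h0, hl, -, -, -⟩
    have hbt : (⊥ : Subgroup G) = ⊤ := by
      rw [← h0, ← hl]
      rfl
    have hall : ∀ A : Subgroup G, A = ⊥ := fun A => by
      apply le_antisymm _ bot_le
      rw [hbt]
      exact le_top
    have hcard : Nat.card G = 1 := by
      rw [← Subgroup.card_top (G := G), ← hbt, Subgroup.card_bot]
    have hh : IsCPiGroup π G := cpi_of_pi (fun q hq hd => by
      rw [hcard] at hd
      exact absurd (Nat.dvd_one.mp hd) hq.one_lt.ne')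
    refine ⟨hh, fun U _ => ?_⟩
    obtain ⟨K, hK⟩ := hh.1
    exact ⟨K, hK, by rw [hall U]; exact bot_le⟩
  | succ n ih =>
    rintro G _ _ ⟨H, h0, hl, hm, hn, hi⟩
    haveI hN1 : (H 1).Normal := hn 1
    have hle : ∀ j : Fin (n + 1), H 1 ≤ H j.succ := fun j =>
      hm (by
        rw [Fin.le_def]
        simp)
    set f : G →* G ⧸ H 1 := QuotientGroup.mk' (H 1) with hf
    have hs : Function.Surjective f := QuotientGroup.mk'_surjective _
    have hk : f.ker = H 1 := QuotientGroup.ker_mk' _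
    have hQ : Good π (G ⧸ H 1) := by
      apply ih (G ⧸ H 1)
      refine ⟨fun i => (H i.succ).map f, ?_, ?_, ?_, ?_, ?_⟩
      · show (H (Fin.succ 0)).map f = ⊥
        rw [Fin.succ_zero_eq_one]
        exact (Subgroup.map_eq_bot_iff (H 1)).mpr (by rw [hk])
      · show (H (Fin.succ (Fin.last n))).map f = ⊤
        rw [Fin.succ_last, hl, Subgroup.map_top_of_surjective f hs]
      · intro a b hab
        exact Subgroup.map_mono (hm (Fin.succ_le_succ_iff.mpr hab))
      · intro i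
        haveI := hn i.succ
        exact Subgroup.Normal.map inferInstance f hs
      · intro i
        have hrel : ((H i.castSucc.succ).map f).relIndex ((H i.succ.succ).map f) =
            (H i.succ.castSucc).relIndex (H i.succ.succ) := by
          rw [← Subgroup.relIndex_comap, Subgroup.comap_map_eq_self (by rw [hk]; exact hle _),
            Fin.succ_castSucc]
        show (∀ q : ℕ, q.Prime → q ∣ ((H i.castSucc.succ).map f).relIndex ((H i.succ.succ).map f) → q ∈ π) ∨
          (∀ q : ℕ, q.Prime → q ∣ ((H i.castSucc.succ).map f).relIndex ((H i.succ.succ).map f) → q ∉ π)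
        rw [hrel]
        exact hi i.succ
    have h01 := hi 0
    have hc0 : (H (Fin.castSucc 0)).relIndex (H (Fin.succ 0)) = Nat.card (H 1) := by
      rw [Fin.castSucc_zero, Fin.succ_zero_eq_one, h0, Subgroup.relIndex_bot_left]
    rw [hc0] at h01
    exact step hFT (H 1) h01 hQ

/-- **Hall subgroups of `π`-separable groups**, given the odd order theorem. -/
theorem main (hFT : ∀ (X : Type u) [Group X] [Finite X], Odd (Nat.card X) → Group.IsSolvable X)
    {G : Type u} [Group G] [Finite G] (π : Set ℕ)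
    (hsep : ∃ (n : ℕ) (H : Fin (n + 1) → Subgroup G), H 0 = ⊥ ∧ H (Fin.last n) = ⊤ ∧ Monotone H ∧ (∀ i, (H i).Normal) ∧
      ∀ i : Fin n, (∀ q : ℕ, q.Prime → q ∣ (H i.castSucc).relIndex (H i.succ) → q ∈ π) ∨
        (∀ q : ℕ, q.Prime → q ∣ (H i.castSucc).relIndex (H i.succ) → q ∉ π)) :
    (∃ K : Subgroup G, Cfsg.IsPiHall π K) ∧
      (∀ K L : Subgroup G, Cfsg.IsPiHall π K → Cfsg.IsPiHall π L → ∃ g : G, L = K.map (MulAut.conj g).toMonoidHom) ∧
      ∀ U : Subgroup G, (∀ q : ℕ, q.Prime → q ∣ Nat.card U → q ∈ π) → ∃ K : Subgroup G, Cfsg.IsPiHall π K ∧ U ≤ K := by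
  obtain ⟨n, hn⟩ := hsep
  have h := good_of_chain hFT π n G hn
  exact ⟨h.1.1, h.1.2, h.2⟩

end Cfsg.Agent.Lib.PiSep.Main
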